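import Cfsg.Agent.Lib.OrderDegrees.ThompsonWielandt.Main

/-!
# When the point stabilisers have bounded order

Two conditions forcing `|G_a|` to divide `d! ((d-1)!)^d`: the arc stabilisers have trivial Fitting group
on the neighbourhood, or the point stabilisers are not strongly constrained.
-/

set_option autoImplicit false

namespace CfsgLib.OrderDegrees.ThompsonWielandt

open MulAction

namespace Orbital

variable {G Ω : Type*} [Group G] [Finite G] [MulAction G Ω] [FaithfulSMul G Ω]
  [IsPreprimitive G Ω] [Nontrivial Ω] {d : ℕ}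

theorem normalizer_stab_le_of_le {S : Subgroup G} {x : Ω} (h : stabilizer G x ≤
    Subgroup.normalizer (S : Set G)) {p : ℕ} :
    stabilizer G x ≤ Subgroup.normalizer (pc p S : Set G) :=
  h.trans (normalizer_le_normalizer_pc p S)

/-- If every normal `p`-subgroup of an arc stabiliser fixes the neighbourhood, it is trivial. -/
theorem pc_K_eq_bot (O : Orbital G Ω d) {p : ℕ} [Fact p.Prime]
    (hloc : ∀ x c, O.R x c → ∀ N : Subgroup G, N ≤ stabilizer G x ⊓ stabilizer G c →
      stabilizer G x ⊓ stabilizer G c ≤ Subgroup.normalizer (N : Set G) → IsPGroup p N →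
        N ≤ O.K x)
    {a c : Ω} (hac : O.R a c) : pc p (O.K a) = ⊥ := by
  by_contra hne
  set P := pc p (O.K a) with hPdef
  set Ra := pc p (stabilizer G a) with hRa
  set Rc := pc p (stabilizer G c) with hRc
  have hPn : stabilizer G a ≤ Subgroup.normalizer (P : Set G) :=
    normalizer_stab_le_of_le (O.stab_le_normalizer_K a)
  have hPa : P ≤ stabilizer G a := (pc_le p _).trans (O.K_le_stab a)
  have hPc : P ≤ stabilizer G c := (pc_le p _).trans (O.K_le_stab_out hac)
  have hRcn : stabilizer G c ≤ Subgroup.normalizer (Rc : Set G) :=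
    normalizer_stab_le_of_le Subgroup.le_normalizer
  have hmax : ∀ N : Subgroup G, N ≤ stabilizer G a ⊓ stabilizer G c →
      stabilizer G a ⊓ stabilizer G c ≤ Subgroup.normalizer (N : Set G) → IsPGroup p N →
        N ≤ P := fun N hle hn hN =>
    le_pc_of_normal (hloc a c hac N hle hn hN) ((O.K_le_inf hac).trans hn) hN
  have hinf : Rc ⊓ stabilizer G a ≤ P := by
    refine hmax _ (le_inf inf_le_right (inf_le_left.trans (pc_le p _))) ?_
      ((isPGroup_pc p _).to_le inf_le_left)
    refine le_normalizer_of_conj_mem fun g hg h hh => ⟨conj_mem (hRcn hg.2) hh.1, ?_⟩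
    exact conj_mem (Subgroup.le_normalizer (H := stabilizer G a) hg.1) hh.2
  set S := P ⊔ Rc with hS
  have hSp : IsPGroup p S :=
    (isPGroup_pc p _).to_sup_of_normal_right' (isPGroup_pc p _) (hPc.trans hRcn)
  have hSc : S ≤ stabilizer G c := sup_le hPc (pc_le p _)
  have hnorm : Subgroup.normalizer (P.subgroupOf S : Set S) = P.subgroupOf S := by
    refine le_antisymm (fun s hs => ?_) Subgroup.le_normalizer
    rw [Subgroup.mem_subgroupOf]
    have hsa : (s : G) ∈ stabilizer G a := by
      rw [← normalizer_eq_stab hne hPa hPn, Subgroup.mem_normalizer_iff]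
      intro h
      constructor
      · intro hh
        exact (Subgroup.mem_normalizer_iff.1 hs ⟨h, le_sup_left (b := Rc) hh⟩).1 hh
      · intro hh
        have hhS : h ∈ S := by
          have := mul_mem (mul_mem (inv_mem s.2) (le_sup_left (b := Rc) hh : _ ∈ S)) s.2
          simpa [mul_assoc] using this
        exact (Subgroup.mem_normalizer_iff.1 hs ⟨h, hhS⟩).2 hh
    obtain ⟨x, hx, r, hr, hxr⟩ : ∃ x ∈ P, ∃ r ∈ Rc, x * r = (s : G) := by
      have h : (s : G) ∈ ((P ⊔ Rc : Subgroup G) : Set G) := s.2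
      rw [Subgroup.coe_mul_of_left_le_normalizer_right P Rc (hPc.trans hRcn)] at h
      exact Set.mem_mul.1 h
    have hra : r ∈ stabilizer G a := by
      have := mul_mem (inv_mem (hPa hx)) hsa
      rwa [← hxr, inv_mul_cancel_left] at this
    rw [← hxr]
    exact mul_mem hx (hinf ⟨hr, hra⟩)
  haveI : Group.IsNilpotent S := hSp.isNilpotent
  have htop : P.subgroupOf S = ⊤ :=
    normalizerCondition_iff_only_full_group_self_normalizing.1
      Group.normalizerCondition_of_isNilpotent _ hnorm
  have hRcP : Rc ≤ P := le_sup_right.trans (Subgroup.subgroupOf_eq_top.1 htop)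
  have hPR : P ≤ Ra := le_pc_of_normal hPa hPn (isPGroup_pc p _)
  have hcard : Nat.card Ra = Nat.card Rc := by
    obtain ⟨g, hg⟩ := exists_smul_eq G a c
    rw [hRa, hRc, ← hg, ← map_stab g a, card_pc_map]
  have heq : Rc = P :=
    Subgroup.eq_of_le_of_card_ge hRcP ((Subgroup.card_le_of_le hPR).trans hcard.le)
  have hca : a = c := eq_of_normal hne hPa hPn hPc (heq ▸ hRcn)
  exact O.irrefl a (hca.symm ▸ hac)

/-- Fitting-free arc stabilisers on the neighbourhood give bounded point stabilisers. -/
theorem fitting_free [Finite Ω] (O : Orbital G Ω d) (hd : 2 ≤ d)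
    (hloc : ∀ p : ℕ, p.Prime → ∀ x c, O.R x c → ∀ N : Subgroup G,
      N ≤ stabilizer G x ⊓ stabilizer G c →
      stabilizer G x ⊓ stabilizer G c ≤ Subgroup.normalizer (N : Set G) → IsPGroup p N →
        N ≤ O.K x)
    {a b : Ω} (hab : O.R a b) :
    (∀ p : ℕ, p.Prime → ∀ N : Subgroup G, N ≤ stabilizer G a ⊓ stabilizer G b →
      stabilizer G a ⊓ stabilizer G b ≤ Subgroup.normalizer (N : Set G) → IsPGroup p N → N = ⊥) ∧
    Nat.card (stabilizer G a) ∣ Nat.factorial d * Nat.factorial (d - 1) ^ d := by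
  have h0 : ∀ p : ℕ, p.Prime → ∀ N : Subgroup G, N ≤ stabilizer G a ⊓ stabilizer G b →
      stabilizer G a ⊓ stabilizer G b ≤ Subgroup.normalizer (N : Set G) → IsPGroup p N →
        N = ⊥ := by
    intro p hp N hle hn hN
    haveI : Fact p.Prime := ⟨hp⟩
    rw [← le_bot_iff, ← O.pc_K_eq_bot (hloc p hp) hab]
    exact le_pc_of_normal (hloc p hp a b hab N hle hn hN) ((O.K_le_inf hab).trans hn) hN
  refine ⟨h0, ?_⟩
  obtain ⟨p, hp, h | h⟩ := O.exists_isPGroup hd hab
  · exact O.card_dvd_of_X_eq_bot (h0 p hp _ ((O.X_le_K a).trans (O.K_le_inf hab))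
      (inf_le_left.trans (O.stab_le_normalizer_X a)) h) a
  · exact O.flip.card_dvd_of_X_eq_bot (h0 p hp _
      ((O.flip.X_le_flipK (x := b) (c := a) hab).trans (O.K_le_inf hab))
      (inf_le_right.trans (O.flip.stab_le_normalizer_X b)) h) a

/-- The key step for stabilisers that are not strongly constrained. -/
theorem not_isPGroup_flipX (O : Orbital G Ω d) {p : ℕ} (hp : p.Prime) {a c : Ω} (hac : O.R a c)
    (hnc : Cfsg.generalizedFittingSubgroup (stabilizer G a) ≠ Cfsg.pCore p (stabilizer G a)) (hne : O.X a ≠ ⊥) (hne' : O.flip.X c ≠ ⊥) :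
    ¬ IsPGroup p (O.flip.X c) := by
  intro h
  have hT : ∀ y, IsPGroup p (O.flip.X y) := fun y => O.flip.isPGroup_X_iff c y h
  have hTle : ∀ c, O.R a c → O.flip.X c ≤ O.K a := fun c hc =>
    O.flip.X_le_flipK (x := c) (c := a) hc
  have hTsn : ∀ c, O.R a c → SnIn (O.flip.X c) (stabilizer G a) := fun c hc =>
    (snIn_of_normal (hTle c hc) ((O.K_le_stab_out hc).trans (O.flip.stab_le_normalizer_X c))).trans
      (snIn_of_normal (O.K_le_stab a) (O.stab_le_normalizer_K a))
  -- `O_p (X a)` is nontrivial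
  have hQ : pc p (O.X a) ≠ ⊥ := by
    by_cases hX : IsPGroup p (O.X a)
    · intro hb
      exact hne (le_bot_iff.1 (hb ▸ le_pc_of_normal le_rfl Subgroup.le_normalizer hX))
    · intro hb
      refine hne' (le_bot_iff.1 (hb ▸ le_pc_of_normal ?_
        (((O.X_le_K a).trans (O.K_le_stab_out hac)).trans (O.flip.stab_le_normalizer_X c)) (hT c)))
      refine le_inf (hTle c hac) (le_iInf₂ fun b hb' => le_inf ?_ (le_iInf₂ fun y hy => ?_))
      · exact (hTle c hac).trans (O.K_le_stab_out hb')
      · have hA : SnIn (O.flip.X c) (stabilizer G a ⊓ stabilizer G b) :=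
          (hTsn c hac).restrict ((hTle c hac).trans (O.K_le_inf hb')) inf_le_left
        have hres := le_normalizer_pRes hp hA (hT c)
          (le_inf (O.flipK_le_stab_in hb') (O.flip.K_le_stab b))
          (inf_le_right.trans (O.flip.stab_le_normalizer_K b)) (O.X_le_flipK (x := y) hy)
          ((O.flipK_le_stab_in hy).trans (O.stab_le_normalizer_X y))
        exact le_stab_of_le_normalizer (pRes_ne_bot hp fun h' => hX (O.isPGroup_X_iff y a h'))
          ((pRes_le p _).trans (O.X_le_stab y))
          ((O.stab_le_normalizer_X y).trans (normalizer_le_normalizer_pRes p _)) hres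
  obtain ⟨r, hr, hrne⟩ := exists_cent_radical hp hnc
  set W := r.F (stabilizer G a) with hW
  have hWn : stabilizer G a ≤ Subgroup.normalizer (W : Set G) :=
    Subgroup.le_normalizer.trans (r.normalizer_le _)
  have hWc : ∀ b, O.R a b → W ≤ stabilizer G b := fun b hb =>
    le_stab_of_le_normalizer (O.flip.X_ne_bot hne' b) (O.flip.X_le_stab b)
      (O.flip.stab_le_normalizer_X b)
      ((hr _ _ _ (snIn_of_normal (r.le _) hWn) (hTsn b hb) (hT b)).trans
        (Subgroup.centralizer_le_normalizer _))
  have hWK : W ≤ O.K a := le_inf (r.le _) (le_iInf₂ hWc)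
  have hWX : W ≤ O.X a := by
    refine le_inf hWK (le_iInf₂ fun b hb => le_inf (hWc b hb) (le_iInf₂ fun z hz => ?_))
    have hM : SnIn W (stabilizer G a ⊓ stabilizer G b) :=
      snIn_of_normal (hWK.trans (O.K_le_inf hb)) (inf_le_left.trans hWn)
    have hzn : stabilizer G z ≤ Subgroup.normalizer (pc p (O.X z) : Set G) :=
      normalizer_stab_le_of_le (O.stab_le_normalizer_X z)
    have hQM : SnIn (pc p (O.X z)) (stabilizer G a ⊓ stabilizer G b) :=
      (snIn_of_normal ((pc_le p _).trans (O.X_le_flipK (x := z) hz))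
        ((O.flipK_le_stab_in hz).trans hzn)).trans
        (snIn_of_normal (le_inf (O.flipK_le_stab_in hb) (O.flip.K_le_stab b))
          (inf_le_right.trans (O.flip.stab_le_normalizer_K b)))
    refine le_stab_of_le_normalizer ?_ ((pc_le p _).trans (O.X_le_stab z)) hzn
      ((hr _ _ _ hM hQM (isPGroup_pc p _)).trans (Subgroup.centralizer_le_normalizer _))
    obtain ⟨g, rfl⟩ := exists_smul_eq G a z
    intro hbot
    apply hQ
    rw [← Subgroup.card_eq_one] at hbot ⊢
    rwa [← O.map_X, card_pc_map] at hbot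
  have hsn : SnIn W (stabilizer G c) :=
    (snIn_of_normal (hWX.trans (O.X_le_flipK hac)) ((O.flipK_le_stab_in hac).trans hWn)).trans
      (snIn_of_normal (O.flip.K_le_stab c) (O.flip.stab_le_normalizer_K c))
  have heq : W = r.F (stabilizer G c) := by
    refine Subgroup.eq_of_le_of_card_ge (r.mono _ _ hsn) (le_of_eq ?_)
    obtain ⟨g, hg⟩ := exists_smul_eq G a c
    rw [hW, ← hg, ← map_stab g a, r.card_map]
  have hca : a = c := eq_of_normal (N := W) hrne (r.le _) hWn hsn.le (by
    rw [heq]; exact Subgroup.le_normalizer.trans (r.normalizer_le _))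
  exact O.irrefl a (hca.symm ▸ hac)

end Orbital

end CfsgLib.OrderDegrees.ThompsonWielandt

namespace CfsgLib.OrderDegrees.ThompsonWielandt.Orbital

open MulAction CfsgLib.Cores

variable {G Ω : Type*} [Group G] [Finite G] [MulAction G Ω] [FaithfulSMul G Ω]
  [IsPreprimitive G Ω] [Nontrivial Ω] {d : ℕ}

/-- Being strongly constrained does not depend on the point. -/
theorem gfs_ne_of_ne {p : ℕ} {a : Ω}
    (h : Cfsg.generalizedFittingSubgroup (stabilizer G a) ≠ Cfsg.pCore p (stabilizer G a)) (b : Ω) :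
    Cfsg.generalizedFittingSubgroup (stabilizer G b) ≠ Cfsg.pCore p (stabilizer G b) := by
  obtain ⟨g, rfl⟩ := exists_smul_eq G a b
  intro hb
  apply h
  let e : stabilizer G a ≃* stabilizer G (g • a) :=
    ((stabilizer G a).equivMapOfInjective (MulAut.conj g).toMonoidHom
      (MulAut.conj g).injective).trans (MulEquiv.subgroupCongr (map_stab g a))
  apply Subgroup.map_injective (f := e.toMonoidHom) e.injective
  rw [map_generalizedFittingSubgroup_equiv, map_pCore_equiv, hb]

/-- Point stabilisers that are not strongly constrained have bounded order. -/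
theorem not_strongly_constrained [Finite Ω] (O : Orbital G Ω d) (hd : 2 ≤ d) {a b : Ω}
    (hab : O.R a b)
    (hnc : ∀ p : ℕ, p.Prime →
      Cfsg.generalizedFittingSubgroup (stabilizer G a) ≠ Cfsg.pCore p (stabilizer G a)) :
    Nat.card (stabilizer G a) ∣ Nat.factorial d * Nat.factorial (d - 1) ^ d := by
  by_cases hX : O.X a = ⊥
  · exact O.card_dvd_of_X_eq_bot hX a
  by_cases hX' : O.flip.X b = ⊥
  · exact O.flip.card_dvd_of_X_eq_bot hX' a
  obtain ⟨p, hp, h | h⟩ := O.exists_isPGroup hd hab
  · exact absurd h (O.flip.not_isPGroup_flipX hp (a := b) (c := a) hab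
      (gfs_ne_of_ne (hnc p hp) b) hX' hX)
  · exact absurd h (O.not_isPGroup_flipX hp hab (hnc p hp) hX hX')

end CfsgLib.OrderDegrees.ThompsonWielandt.Orbital
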