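import Cfsg.Agent.Lib.OrderDegrees.ThompsonWielandt.Main

/-!
# The orbital of a pair of points
-/

set_option autoImplicit false

namespace CfsgLib.OrderDegrees.ThompsonWielandt

open MulAction

variable {G Ω : Type*} [Group G] [MulAction G Ω]

theorem ne_of_suborbit {a b : Ω} {d : ℕ} (hd : Nat.card (orbit (stabilizer G a) b) = d)
    (h2 : 2 ≤ d) : a ≠ b := by
  rintro rfl
  haveI : Subsingleton (orbit (stabilizer G a) a) := by
    constructor
    rintro ⟨_, g, rfl⟩ ⟨_, h, rfl⟩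
    exact Subtype.ext ((g.2 : (g : G) • a = a).trans (h.2 : (h : G) • a = a).symm)
  have : Nat.card (orbit (stabilizer G a) a) ≤ 1 := Finite.card_le_one_iff_subsingleton.2 inferInstance
  omega

theorem mem_suborbit_iff {a b y : Ω} :
    (∃ g : G, g • a = a ∧ g • b = y) ↔ y ∈ orbit (stabilizer G a) b :=
  ⟨fun ⟨g, hga, hgb⟩ => ⟨⟨g, hga⟩, hgb⟩, fun ⟨g, hg⟩ => ⟨g, g.2, hg⟩⟩

theorem card_pairs_out [IsPretransitive G Ω] {a b : Ω} {d : ℕ}
    (hd : Nat.card (orbit (stabilizer G a) b) = d) (x : Ω) :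
    Nat.card {y // ∃ g : G, g • a = x ∧ g • b = y} = d := by
  obtain ⟨k, rfl⟩ := exists_smul_eq G a x
  rw [← hd]
  refine Nat.card_congr ((MulAction.toPerm k).symm.subtypeEquiv fun y => ?_)
  rw [← mem_suborbit_iff]
  show _ ↔ ∃ g : G, g • a = a ∧ g • b = k⁻¹ • y
  constructor
  · rintro ⟨g, hga, hgb⟩
    exact ⟨k⁻¹ * g, by rw [mul_smul, hga, inv_smul_smul], by rw [mul_smul, hgb]⟩
  · rintro ⟨g, hga, hgb⟩
    exact ⟨k * g, by rw [mul_smul, hga], by rw [mul_smul, hgb, smul_inv_smul]⟩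

theorem card_pairs_in [IsPretransitive G Ω] [Finite Ω] {a b : Ω} {d : ℕ}
    (hd : Nat.card (orbit (stabilizer G a) b) = d) (y : Ω) :
    Nat.card {x // ∃ g : G, g • a = x ∧ g • b = y} = d := by
  haveI := Fintype.ofFinite Ω
  set f : Ω → ℕ := fun y => Nat.card {x // ∃ g : G, g • a = x ∧ g • b = y} with hf
  have hconst : ∀ y₁ y₂ : Ω, f y₁ = f y₂ := by
    intro y₁ y₂
    obtain ⟨k, rfl⟩ := exists_smul_eq G y₁ y₂
    refine Nat.card_congr ((MulAction.toPerm k).subtypeEquiv fun x => ?_)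
    show _ ↔ ∃ g : G, g • a = k • x ∧ g • b = k • y₁
    constructor
    · rintro ⟨g, hga, hgb⟩
      exact ⟨k * g, by rw [mul_smul, hga], by rw [mul_smul, hgb]⟩
    · rintro ⟨g, hga, hgb⟩
      exact ⟨k⁻¹ * g, by rw [mul_smul, hga, inv_smul_smul], by rw [mul_smul, hgb, inv_smul_smul]⟩
  have h1 : Nat.card (Σ x : Ω, {y // ∃ g : G, g • a = x ∧ g • b = y}) = Fintype.card Ω * d := by
    rw [Nat.card_sigma, Finset.sum_congr rfl fun x _ => card_pairs_out hd x, Finset.sum_const,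
      Finset.card_univ, smul_eq_mul]
  have h2 : Nat.card (Σ y : Ω, {x // ∃ g : G, g • a = x ∧ g • b = y}) = Fintype.card Ω * f y := by
    rw [Nat.card_sigma, Finset.sum_congr rfl fun z _ => hconst z y, Finset.sum_const,
      Finset.card_univ, smul_eq_mul]
  have e : Nat.card (Σ x : Ω, {y // ∃ g : G, g • a = x ∧ g • b = y}) =
      Nat.card (Σ y : Ω, {x // ∃ g : G, g • a = x ∧ g • b = y}) :=
    Nat.card_congr
      { toFun := fun p => ⟨p.2.1, p.1, p.2.2⟩
        invFun := fun p => ⟨p.2.1, p.1, p.2.2⟩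
        left_inv := fun _ => rfl
        right_inv := fun _ => rfl }
  haveI : Nonempty Ω := ⟨y⟩
  rw [h1, h2] at e
  exact (Nat.eq_of_mul_eq_mul_left Fintype.card_pos e).symm

/-- The orbital of the pair `(a, b)`. -/
def Orbital.ofPair [IsPretransitive G Ω] [Finite Ω] {a b : Ω} {d : ℕ}
    (hd : Nat.card (orbit (stabilizer G a) b) = d) (h2 : 2 ≤ d) : Orbital G Ω d where
  R x y := ∃ g : G, g • a = x ∧ g • b = y
  smul k x y := by
    rintro ⟨g, rfl, rfl⟩
    exact ⟨k * g, mul_smul k g a, mul_smul k g b⟩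
  trans x y x' y' := by
    rintro ⟨g, rfl, rfl⟩ ⟨h, rfl, rfl⟩
    exact ⟨h * g⁻¹, by rw [mul_smul, inv_smul_smul], by rw [mul_smul, inv_smul_smul]⟩
  irrefl x := by
    rintro ⟨g, hga, hgb⟩
    exact ne_of_suborbit hd h2 (smul_left_cancel g (hga.trans hgb.symm))
  card_out := card_pairs_out hd
  card_in := card_pairs_in hd

theorem Orbital.ofPair_R [IsPretransitive G Ω] [Finite Ω] {a b : Ω} {d : ℕ}
    (hd : Nat.card (orbit (stabilizer G a) b) = d) (h2 : 2 ≤ d) : (Orbital.ofPair hd h2).R a b :=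
  ⟨1, one_smul G a, one_smul G b⟩

end CfsgLib.OrderDegrees.ThompsonWielandt
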