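import Cfsg.Agent.Lib.OrderDegrees.ThompsonWielandt.Bounds
import Cfsg.Agent.Lib.OrderDegrees.ThompsonWielandt.OfPair

/-!
# Trivial Fitting group of the two-point stabiliser on the suborbit, seen at every arc
-/

set_option autoImplicit false

namespace CfsgLib.OrderDegrees.ThompsonWielandt

open MulAction CfsgLib.Cores

variable {G Ω : Type*} [Group G] [Finite G] [MulAction G Ω] [Finite Ω]

/-- A normal `p`-subgroup of the two-point stabiliser acts trivially on the suborbit. -/
theorem smul_eq_of_fitting_free {a b : Ω}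
    (hF : Cfsg.fittingSubgroup ↥(((stabilizer G b).subgroupOf (stabilizer G a)).map
      (MulAction.toPermHom (stabilizer G a) (orbit (stabilizer G a) b))) = ⊥)
    {p : ℕ} [Fact p.Prime] {N : Subgroup G} (hle : N ≤ stabilizer G a ⊓ stabilizer G b)
    (hn : stabilizer G a ⊓ stabilizer G b ≤ Subgroup.normalizer (N : Set G)) (hN : IsPGroup p N)
    {y : Ω} (hy : y ∈ orbit (stabilizer G a) b) {n : G} (hn' : n ∈ N) : n • y = y := by
  set f := MulAction.toPermHom (stabilizer G a) (orbit (stabilizer G a) b) with hf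
  set H := (stabilizer G b).subgroupOf (stabilizer G a) with hH
  set N' := N.subgroupOf (stabilizer G a) with hN'
  have hN'H : N' ≤ H := fun x hx => (hle hx).2
  have hHn : H ≤ Subgroup.normalizer (N' : Set (stabilizer G a)) := fun x hx => by
    rw [Subgroup.mem_normalizer_iff]
    intro m
    simpa [hN', Subgroup.mem_subgroupOf] using
      Subgroup.mem_normalizer_iff.1 (hn ⟨x.2, hx⟩) (m : G)
  haveI : ((N'.map f).subgroupOf (H.map f)).Normal :=
    Subgroup.normal_subgroupOf_of_le_normalizer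
      ((Subgroup.map_mono hHn).trans (Subgroup.le_normalizer_map f))
  have hp : IsPGroup p ((N'.map f).subgroupOf (H.map f)) :=
    (hN.comap_subtype.map f).of_equiv (Subgroup.subgroupOfEquivOfLe (Subgroup.map_mono hN'H)).symm
  have hb := le_fittingSubgroup hp.isNilpotent
  rw [hF, le_bot_iff] at hb
  have hna : n ∈ stabilizer G a := (hle hn').1
  have hmem : f ⟨n, hna⟩ ∈ N'.map f := Subgroup.mem_map_of_mem f hn'
  have hone : (⟨f ⟨n, hna⟩, Subgroup.map_mono hN'H hmem⟩ : H.map f) ∈
      (N'.map f).subgroupOf (H.map f) := hmem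
  rw [hb, Subgroup.mem_bot] at hone
  have h1 : f ⟨n, hna⟩ = 1 := congrArg Subtype.val hone
  exact congrArg Subtype.val (Equiv.ext_iff.1 h1 ⟨y, hy⟩)

/-- The hypothesis of `Orbital.fitting_free` for the orbital of `(a, b)`. -/
theorem le_K_of_fitting_free [IsPretransitive G Ω] {a b : Ω} {d : ℕ}
    (hd : Nat.card (orbit (stabilizer G a) b) = d) (h2 : 2 ≤ d)
    (hF : Cfsg.fittingSubgroup ↥(((stabilizer G b).subgroupOf (stabilizer G a)).map
      (MulAction.toPermHom (stabilizer G a) (orbit (stabilizer G a) b))) = ⊥)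
    (p : ℕ) (hp : p.Prime) (x c : Ω) (hxc : (Orbital.ofPair hd h2).R x c) (N : Subgroup G)
    (hle : N ≤ stabilizer G x ⊓ stabilizer G c)
    (hn : stabilizer G x ⊓ stabilizer G c ≤ Subgroup.normalizer (N : Set G)) (hN : IsPGroup p N) :
    N ≤ (Orbital.ofPair hd h2).K x := by
  haveI : Fact p.Prime := ⟨hp⟩
  obtain ⟨g, rfl, rfl⟩ := hxc
  set φ := (MulAut.conj g⁻¹).toMonoidHom with hφ
  have hst : (stabilizer G (g • a) ⊓ stabilizer G (g • b)).map φ =
      stabilizer G a ⊓ stabilizer G b := by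
    rw [Subgroup.map_inf _ _ _ (MulAut.conj g⁻¹).injective, Orbital.map_stab, Orbital.map_stab,
      inv_smul_smul, inv_smul_smul]
  have hK : N.map φ ≤ (Orbital.ofPair hd h2).K a := by
    intro m hm
    have hmle : m ∈ stabilizer G a ⊓ stabilizer G b := hst ▸ Subgroup.map_mono hle hm
    rw [Orbital.mem_K]
    refine ⟨hmle.1, fun y hy => ?_⟩
    obtain ⟨h, hha, hhb⟩ := hy
    exact smul_eq_of_fitting_free hF (hst ▸ Subgroup.map_mono hle)
      (hst ▸ (Subgroup.map_mono hn).trans (Subgroup.le_normalizer_map φ)) (hN.map φ)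
      (mem_suborbit_iff.1 ⟨h, hha, hhb⟩) hm
  have hKg : ((Orbital.ofPair hd h2).K (g • a)).map φ = (Orbital.ofPair hd h2).K a := by
    rw [Orbital.map_K, inv_smul_smul]
  rw [← hKg] at hK
  exact (Subgroup.map_le_map_iff_of_injective (MulAut.conj g⁻¹).injective).1 hK

end CfsgLib.OrderDegrees.ThompsonWielandt
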