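import Cfsg.Agent.Lib.OrderDegrees.ThompsonWielandt.Orbital

/-!
# The Thompson–Wielandt theorem

For an orbital of a faithful primitive group, `X x` or the dual `X' y` is a group of prime power order.
-/

set_option autoImplicit false

namespace CfsgLib.OrderDegrees.ThompsonWielandt

open MulAction

section Primitive

variable {G Ω : Type*} [Group G] [MulAction G Ω] [FaithfulSMul G Ω] [IsPreprimitive G Ω]
  [Nontrivial Ω]

theorem normalizer_eq_stab {N : Subgroup G} {x : Ω} (hne : N ≠ ⊥) (hle : N ≤ stabilizer G x)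
    (hn : stabilizer G x ≤ Subgroup.normalizer (N : Set G)) :
    Subgroup.normalizer (N : Set G) = stabilizer G x := by
  rcases eq_or_lt_of_le hn with h | h
  · exact h.symm
  · exfalso
    have htop := (IsPreprimitive.isCoatom_stabilizer_of_isPreprimitive (G := G) x).2 _ h
    refine hne ((Subgroup.eq_bot_iff_forall _).2 fun n hn' => ?_)
    refine eq_of_smul_eq_smul (α := Ω) fun y => ?_
    obtain ⟨g, rfl⟩ := exists_smul_eq G x y
    have hconj : g⁻¹ * n * g ∈ N := by
      have hg : g⁻¹ ∈ Subgroup.normalizer (N : Set G) := htop ▸ Subgroup.mem_top _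
      simpa using conj_mem hg hn'
    have := (Orbital.conj_smul_eq_iff g n x).1 (hle hconj)
    rwa [one_smul]

theorem le_stab_of_le_normalizer {A N : Subgroup G} {x : Ω} (hne : N ≠ ⊥)
    (hle : N ≤ stabilizer G x) (hn : stabilizer G x ≤ Subgroup.normalizer (N : Set G))
    (hA : A ≤ Subgroup.normalizer (N : Set G)) : A ≤ stabilizer G x :=
  normalizer_eq_stab hne hle hn ▸ hA

theorem eq_of_normal {N : Subgroup G} {x y : Ω} (hne : N ≠ ⊥) (hx : N ≤ stabilizer G x)
    (hxn : stabilizer G x ≤ Subgroup.normalizer (N : Set G)) (hy : N ≤ stabilizer G y)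
    (hyn : stabilizer G y ≤ Subgroup.normalizer (N : Set G)) : x = y := by
  have h : stabilizer G x = stabilizer G y :=
    (normalizer_eq_stab hne hx hxn).symm.trans (normalizer_eq_stab hne hy hyn)
  obtain ⟨g, rfl⟩ := exists_smul_eq G x y
  have hS : stabilizer G x ≠ ⊥ := fun hb => hne (le_bot_iff.1 (hb ▸ hx))
  have hg : g ∈ Subgroup.normalizer (stabilizer G x : Set G) := by
    rw [Subgroup.mem_normalizer_iff]
    intro n
    conv_rhs => rw [h]
    rw [← Orbital.map_stab g x, Orbital.mem_map_conj]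
    simp [mul_assoc]
  rw [normalizer_eq_stab hS le_rfl Subgroup.le_normalizer] at hg
  exact (mem_stabilizer_iff.1 hg).symm

end Primitive

namespace Orbital

variable {G Ω : Type*} [Group G] [Finite G] [MulAction G Ω] [FaithfulSMul G Ω]
  [IsPreprimitive G Ω] [Nontrivial Ω] {d : ℕ}

/-- The Thompson–Wielandt theorem. -/
theorem exists_isPGroup [Finite Ω] (O : Orbital G Ω d) (hd : 2 ≤ d) {a c : Ω} (hac : O.R a c) :
    ∃ p : ℕ, p.Prime ∧ (IsPGroup p (O.X a) ∨ IsPGroup p (O.flip.X c)) := by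
  by_contra hcon
  have hX : ∀ y, ∀ p : ℕ, p.Prime → ¬ IsPGroup p (O.X y) :=
    fun y p hp h => hcon ⟨p, hp, Or.inl (O.isPGroup_X_iff y a h)⟩
  have hX' : ∀ y, ∀ p : ℕ, p.Prime → ¬ IsPGroup p (O.flip.X y) :=
    fun y p hp h => hcon ⟨p, hp, Or.inr (O.flip.isPGroup_X_iff y c h)⟩
  have hne : O.X a ≠ ⊥ := fun h => hX a 2 Nat.prime_two (h ▸ IsPGroup.of_bot)
  obtain ⟨r, hr, hrne⟩ := exists_good_radical hne
  obtain ⟨z, hz, hza⟩ : ∃ z, O.R z c ∧ z ≠ a := by
    by_contra! h
    haveI : Subsingleton {z // O.R z c} :=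
      ⟨fun u v => Subtype.ext ((h u u.2).trans (h v v.2).symm)⟩
    have := Finite.card_le_one_iff_subsingleton.2 (inferInstance : Subsingleton {z // O.R z c})
    rw [O.card_in] at this
    omega
  set A := r.F (O.X a) with hAdef
  set M := stabilizer G z ⊓ stabilizer G c with hM
  have hstabA : stabilizer G a ≤ Subgroup.normalizer (A : Set G) :=
    (O.stab_le_normalizer_X a).trans (r.normalizer_le _)
  have hAK' : A ≤ O.flip.K c := (r.le _).trans (O.X_le_flipK hac)
  have hK'M : O.flip.K c ≤ M := le_inf (O.flipK_le_stab_in hz) (O.flip.K_le_stab c)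
  have hA : SnIn A M :=
    (snIn_of_normal hAK' ((O.flipK_le_stab_in hac).trans hstabA)).trans
      (snIn_of_normal hK'M (inf_le_right.trans (O.flip.stab_le_normalizer_K c)))
  have hKM : O.K z ≤ M := O.K_le_inf hz
  have hw : ∀ w, O.R z w → A ≤ stabilizer G w := by
    intro w hzw
    obtain ⟨B₀, hB0, hB0le, hB0n, hA0⟩ :=
      hr _ M (O.K z) (O.flip.X w) hA hKM (inf_le_left.trans (O.stab_le_normalizer_K z))
        (O.flip.X_le_flipK (x := w) (c := z) hzw)
        ((O.K_le_stab_out hzw).trans (O.flip.stab_le_normalizer_X w)) (hX' w)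
    exact le_stab_of_le_normalizer hB0 (hB0le.trans (O.flip.X_le_stab w))
      ((O.flip.stab_le_normalizer_X w).trans hB0n) hA0
  have hAz : A ≤ O.K z := le_inf (hA.le.trans inf_le_left) (le_iInf₂ hw)
  have hy : ∀ w, O.R z w → ∀ y, O.R y w → A ≤ stabilizer G y := by
    intro w hzw y hyw
    have hA2 : SnIn A (stabilizer G z ⊓ stabilizer G w) :=
      (hA.restrict hAz hKM).trans
        (snIn_of_normal (O.K_le_inf hzw) (inf_le_left.trans (O.stab_le_normalizer_K z)))
    obtain ⟨B₀, hB0, hB0le, hB0n, hA0⟩ :=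
      hr _ _ (O.flip.K w) (O.X y) hA2 (le_inf (O.flipK_le_stab_in hzw) (O.flip.K_le_stab w))
        (inf_le_right.trans (O.flip.stab_le_normalizer_K w)) (O.X_le_flipK hyw)
        ((O.flipK_le_stab_in hyw).trans (O.stab_le_normalizer_X y)) (hX y)
    exact le_stab_of_le_normalizer hB0 (hB0le.trans (O.X_le_stab y))
      ((O.stab_le_normalizer_X y).trans hB0n) hA0
  have hAX : A ≤ O.X z :=
    le_inf hAz (le_iInf₂ fun w hzw => le_inf (hw w hzw) (le_iInf₂ fun y hyw => hy w hzw y hyw))
  have hsn : SnIn A (O.X z) := hA.restrict hAX ((O.X_le_K z).trans hKM)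
  have heq : A = r.F (O.X z) := by
    refine Subgroup.eq_of_le_of_card_ge (r.mono _ _ hsn) (le_of_eq ?_)
    obtain ⟨g, rfl⟩ := exists_smul_eq G a z
    rw [← O.map_X, r.card_map]
  refine hza (eq_of_normal (N := A) hrne (hAX.trans (O.X_le_stab z)) ?_
    ((r.le _).trans (O.X_le_stab a)) hstabA)
  rw [heq]
  exact (O.stab_le_normalizer_X z).trans (r.normalizer_le _)

theorem card_stab_eq {G Ω : Type*} [Group G] [MulAction G Ω] [IsPretransitive G Ω] (x y : Ω) :
    Nat.card (stabilizer G y) = Nat.card (stabilizer G x) := by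
  obtain ⟨g, rfl⟩ := exists_smul_eq G x y
  rw [← map_stab g x]
  exact Subgroup.card_map_of_injective (MulAut.conj g).injective

theorem card_mul_relIndex {G : Type*} [Group G] {H L : Subgroup G} (h : H ≤ L) :
    Nat.card H * H.relIndex L = Nat.card L := by
  rw [← Subgroup.relIndex_bot_left H, ← Subgroup.relIndex_bot_left L,
    Subgroup.relIndex_mul_relIndex _ _ _ bot_le h]

/-- If `X x` is trivial then the point stabilisers have order dividing `d! ((d-1)!)^d`. -/
theorem card_dvd_of_X_eq_bot [Finite Ω] (O : Orbital G Ω d) {x : Ω} (h : O.X x = ⊥) (a : Ω) :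
    Nat.card (stabilizer G a) ∣ Nat.factorial d * Nat.factorial (d - 1) ^ d := by
  rw [card_stab_eq x a, ← Subgroup.relIndex_bot_left, ← h]
  exact O.relIndex_X_dvd x

/-- Wielandt: a normal `p`-subgroup of bounded index in a point stabiliser. -/
theorem exists_normal_pGroup [Finite Ω] (O : Orbital G Ω d) (hd : 2 ≤ d) {a b : Ω}
    (hab : O.R a b) :
    ∃ p : ℕ, p.Prime ∧ ∃ P : Subgroup G, P ≤ O.K a ∧
      stabilizer G a ≤ Subgroup.normalizer (P : Set G) ∧ IsPGroup p P ∧
      P.relIndex (stabilizer G a) ∣ Nat.factorial d * Nat.factorial (d - 1) ^ d := by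
  obtain ⟨p, hp, h | h⟩ := O.exists_isPGroup hd hab
  · exact ⟨p, hp, O.X a, O.X_le_K a, O.stab_le_normalizer_X a, h, O.relIndex_X_dvd a⟩
  · refine ⟨p, hp, pc p (O.K a), pc_le p _,
      (O.stab_le_normalizer_K a).trans (normalizer_le_normalizer_pc p _), isPGroup_pc p _, ?_⟩
    have h1 : O.flip.X b ≤ O.K a := O.flip.X_le_flipK (x := b) (c := a) hab
    have h2 : O.flip.X b ≤ pc p (O.K a) :=
      le_pc_of_normal h1 ((O.K_le_stab_out hab).trans (O.flip.stab_le_normalizer_X b)) h
    refine (Subgroup.relIndex_dvd_of_le_left _ h2).trans ?_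
    have e1 := card_mul_relIndex (h1.trans (O.K_le_stab a))
    have e2 := card_mul_relIndex (O.flip.X_le_stab b)
    rw [card_stab_eq a b, ← e1] at e2
    rw [← Nat.eq_of_mul_eq_mul_left Nat.card_pos e2]
    exact O.flip.relIndex_X_dvd b

end Orbital

end CfsgLib.OrderDegrees.ThompsonWielandt
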