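import Cfsg.Agent.Lib.OrderDegrees.ThompsonWielandt.Radical
import Mathlib.GroupTheory.GroupAction.Primitive

/-!
# Orbital digraphs of finite primitive groups

`K x` fixes `x` and its out-neighbours, `X x` fixes also the in-neighbours of the out-neighbours.
-/

set_option autoImplicit false

namespace CfsgLib.OrderDegrees.ThompsonWielandt

open MulAction

/-- An orbital of valency `d`: an invariant, arc-transitive, loopless relation. -/
structure Orbital (G Ω : Type*) [Group G] [MulAction G Ω] (d : ℕ) where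
  /-- The relation. -/
  R : Ω → Ω → Prop
  smul : ∀ (g : G) (x y : Ω), R x y → R (g • x) (g • y)
  trans : ∀ x y x' y' : Ω, R x y → R x' y' → ∃ g : G, g • x = x' ∧ g • y = y'
  irrefl : ∀ x, ¬ R x x
  card_out : ∀ x, Nat.card {y // R x y} = d
  card_in : ∀ y, Nat.card {x // R x y} = d

namespace Orbital

variable {G Ω : Type*} [Group G] [MulAction G Ω] {d : ℕ}

/-- The converse orbital. -/
def flip (O : Orbital G Ω d) : Orbital G Ω d where
  R x y := O.R y x
  smul g x y := O.smul g y x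
  trans x y x' y' h h' := (O.trans y x y' x' h h').imp fun _ h => ⟨h.2, h.1⟩
  irrefl := O.irrefl
  card_out := O.card_in
  card_in := O.card_out

variable (O : Orbital G Ω d)

theorem smul_iff (g : G) (x y : Ω) : O.R (g • x) (g • y) ↔ O.R x y := by
  refine ⟨fun h => ?_, O.smul g x y⟩
  have := O.smul g⁻¹ _ _ h
  rwa [inv_smul_smul, inv_smul_smul] at this

theorem out_iff {g : G} {x : Ω} (hg : g ∈ stabilizer G x) (y : Ω) : O.R x y ↔ O.R x (g • y) := by
  conv_rhs => rw [← (mem_stabilizer_iff.1 hg : g • x = x)]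
  exact (O.smul_iff g x y).symm

/-- The pointwise stabiliser of `x` and its out-neighbours. -/
def K (x : Ω) : Subgroup G :=
  stabilizer G x ⊓ ⨅ c, ⨅ (_ : O.R x c), stabilizer G c

theorem mem_K {g : G} {x : Ω} : g ∈ O.K x ↔ g • x = x ∧ ∀ c, O.R x c → g • c = c := by
  simp [K, Subgroup.mem_iInf]

/-- The pointwise stabiliser of `x`, its out-neighbours and their in-neighbours. -/
def X (x : Ω) : Subgroup G :=
  O.K x ⊓ ⨅ c, ⨅ (_ : O.R x c), O.flip.K c

theorem mem_X {g : G} {x : Ω} :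
    g ∈ O.X x ↔ g ∈ O.K x ∧ ∀ c, O.R x c → g ∈ O.flip.K c := by
  simp [X, Subgroup.mem_iInf]

theorem K_le_stab (x : Ω) : O.K x ≤ stabilizer G x := inf_le_left

theorem K_le_stab_out {x c : Ω} (h : O.R x c) : O.K x ≤ stabilizer G c :=
  inf_le_right.trans (iInf₂_le c h)

theorem K_le_inf {x c : Ω} (h : O.R x c) : O.K x ≤ stabilizer G x ⊓ stabilizer G c :=
  le_inf (O.K_le_stab x) (O.K_le_stab_out h)

theorem X_le_K (x : Ω) : O.X x ≤ O.K x := inf_le_left

theorem X_le_stab (x : Ω) : O.X x ≤ stabilizer G x := (O.X_le_K x).trans (O.K_le_stab x)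

theorem X_le_flipK {x c : Ω} (h : O.R x c) : O.X x ≤ O.flip.K c :=
  inf_le_right.trans (iInf₂_le c h)

theorem flipK_le_stab_in {x c : Ω} (h : O.R x c) : O.flip.K c ≤ stabilizer G x :=
  O.flip.K_le_stab_out h

theorem map_stab (g : G) (x : Ω) :
    (stabilizer G x).map (MulAut.conj g).toMonoidHom = stabilizer G (g • x) :=
  (stabilizer_smul_eq_stabilizer_map_conj g x).symm

theorem mem_map_conj {S : Subgroup G} {g h : G} :
    h ∈ S.map (MulAut.conj g).toMonoidHom ↔ g⁻¹ * h * g ∈ S := by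
  constructor
  · rintro ⟨s, hs, rfl⟩
    simpa [mul_assoc] using hs
  · intro hs
    exact ⟨_, hs, by simp [mul_assoc]⟩

theorem conj_smul_eq_iff (g h : G) (y : Ω) : (g⁻¹ * h * g) • y = y ↔ h • g • y = g • y := by
  rw [mul_smul, mul_smul, inv_smul_eq_iff]

theorem map_K (g : G) (x : Ω) :
    (O.K x).map (MulAut.conj g).toMonoidHom = O.K (g • x) := by
  ext h
  rw [mem_map_conj, mem_K, mem_K, conj_smul_eq_iff]
  refine and_congr Iff.rfl ⟨fun hall c hc => ?_, fun hall c hc => ?_⟩
  · have hc' : O.R x (g⁻¹ • c) := by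
      rw [← O.smul_iff g, smul_inv_smul]
      exact hc
    have := (conj_smul_eq_iff g h _).1 (hall _ hc')
    rwa [smul_inv_smul] at this
  · exact (conj_smul_eq_iff g h c).2 (hall _ (O.smul g x c hc))

theorem map_X (g : G) (x : Ω) :
    (O.X x).map (MulAut.conj g).toMonoidHom = O.X (g • x) := by
  ext h
  rw [mem_map_conj, mem_X, mem_X, ← mem_map_conj, O.map_K]
  refine and_congr Iff.rfl ⟨fun hall c hc => ?_, fun hall c hc => ?_⟩
  · have hc' : O.R x (g⁻¹ • c) := by
      rw [← O.smul_iff g, smul_inv_smul]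
      exact hc
    have := mem_map_conj.2 (hall _ hc')
    rwa [O.flip.map_K, smul_inv_smul] at this
  · rw [← mem_map_conj, O.flip.map_K]
    exact hall _ (O.smul g x c hc)

theorem le_normalizer_of_map_eq {S H : Subgroup G}
    (h : ∀ g ∈ H, S.map (MulAut.conj g).toMonoidHom = S) :
    H ≤ Subgroup.normalizer (S : Set G) :=
  le_normalizer_of_conj_mem fun g hg _ hs =>
    (h g hg) ▸ Subgroup.mem_map_of_mem (MulAut.conj g).toMonoidHom hs

theorem stab_le_normalizer_K (x : Ω) :
    stabilizer G x ≤ Subgroup.normalizer (O.K x : Set G) :=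
  le_normalizer_of_map_eq fun g hg => by rw [O.map_K, mem_stabilizer_iff.1 hg]

theorem stab_le_normalizer_X (x : Ω) :
    stabilizer G x ≤ Subgroup.normalizer (O.X x : Set G) :=
  le_normalizer_of_map_eq fun g hg => by rw [O.map_X, mem_stabilizer_iff.1 hg]

theorem isPGroup_X_iff [IsPretransitive G Ω] {p : ℕ} (x y : Ω) :
    IsPGroup p (O.X x) → IsPGroup p (O.X y) := by
  intro h
  obtain ⟨g, rfl⟩ := exists_smul_eq G x y
  rw [← O.map_X]
  exact h.map _

theorem card_X_eq [IsPretransitive G Ω] (x y : Ω) : Nat.card (O.X y) = Nat.card (O.X x) := by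
  obtain ⟨g, rfl⟩ := exists_smul_eq G x y
  rw [← O.map_X]
  exact Subgroup.card_map_of_injective (MulAut.conj g).injective

theorem X_ne_bot [IsPretransitive G Ω] [Finite G] {x : Ω} (h : O.X x ≠ ⊥) (y : Ω) :
    O.X y ≠ ⊥ := fun hy => h (by
  rw [← Subgroup.card_eq_one] at hy ⊢
  rwa [O.card_X_eq x y] at hy)

/-- The action of `H` on an invariant set of points. -/
def permOn (H : Subgroup G) (P : Ω → Prop) (h : ∀ g ∈ H, ∀ y, P y ↔ P (g • y)) :
    H →* Equiv.Perm {y // P y} where
  toFun g := (MulAction.toPerm (g : G)).subtypePerm fun y => (h g g.2 y).symm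
  map_one' := Equiv.ext fun y => Subtype.ext (one_smul G (y : Ω))
  map_mul' g k := Equiv.ext fun y => Subtype.ext (mul_smul (g : G) (k : G) (y : Ω))

theorem mem_ker_permOn {H : Subgroup G} {P : Ω → Prop} {h : ∀ g ∈ H, ∀ y, P y ↔ P (g • y)}
    {g : H} : g ∈ (permOn H P h).ker ↔ ∀ y, P y → (g : G) • y = y := by
  rw [MonoidHom.mem_ker, Equiv.ext_iff]
  exact ⟨fun hg y hy => congrArg Subtype.val (hg ⟨y, hy⟩),
    fun hg y => Subtype.ext (hg y y.2)⟩

theorem relIndex_K_dvd [Finite Ω] (x : Ω) :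
    (O.K x).relIndex (stabilizer G x) ∣ Nat.factorial d := by
  let f := permOn (stabilizer G x) (O.R x) fun g hg y => O.out_iff hg y
  have hker : f.ker = (O.K x).subgroupOf (stabilizer G x) := by
    ext g
    rw [mem_ker_permOn, Subgroup.mem_subgroupOf, mem_K]
    exact ⟨fun h => ⟨g.2, h⟩, fun h => h.2⟩
  rw [Subgroup.relIndex, ← hker, Subgroup.index_ker]
  refine (Subgroup.card_subgroup_dvd_card f.range).trans (dvd_of_eq ?_)
  rw [Nat.card_perm, O.card_out]

theorem relIndex_X_K_dvd [Finite Ω] (x : Ω) :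
    (O.X x).relIndex (O.K x) ∣ Nat.factorial (d - 1) ^ d := by
  classical
  haveI := Fintype.ofFinite Ω
  have hP : ∀ c : {c // O.R x c}, ∀ g ∈ O.K x, ∀ w : Ω,
      (O.R w c ∧ w ≠ x) ↔ (O.R (g • w) c ∧ g • w ≠ x) := by
    intro c g hg w
    obtain ⟨hx, hc⟩ := (mem_K O).1 hg
    have h1 := O.smul_iff g w (c : Ω)
    rw [hc _ c.2] at h1
    exact and_congr h1.symm
      (not_congr ⟨fun h => h ▸ hx, fun h => smul_left_cancel g (h.trans hx.symm)⟩)
  let f := MonoidHom.pi fun c : {c // O.R x c} =>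
    permOn (O.K x) (fun w => O.R w c ∧ w ≠ x) (hP c)
  have hker : f.ker = (O.X x).subgroupOf (O.K x) := by
    ext g
    rw [MonoidHom.mem_ker, funext_iff, Subgroup.mem_subgroupOf, mem_X]
    obtain ⟨hx, hall⟩ := (mem_K O).1 g.2
    constructor
    · intro h
      refine ⟨g.2, fun c hc => (mem_K O.flip).2 ⟨hall c hc, fun w hw => ?_⟩⟩
      rcases eq_or_ne w x with rfl | hne
      · exact hx
      · exact (mem_ker_permOn (h := hP ⟨c, hc⟩)).1 (h ⟨c, hc⟩) w ⟨hw, hne⟩
    · intro h c
      exact (mem_ker_permOn (h := hP c)).2 fun w hw => ((mem_K O.flip).1 (h.2 c c.2)).2 w hw.1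
  rw [Subgroup.relIndex, ← hker, Subgroup.index_ker]
  refine (Subgroup.card_subgroup_dvd_card f.range).trans (dvd_of_eq ?_)
  rw [Nat.card_pi]
  have hc : ∀ c : {c // O.R x c}, Nat.card (Equiv.Perm {w // O.R w c ∧ w ≠ x}) =
      Nat.factorial (d - 1) := by
    intro c
    rw [Nat.card_perm]
    congr 1
    have h : Nat.card {w // O.R w c ∧ w ≠ x} = Nat.card {w // O.R w c} - 1 := by
      rw [Nat.card_eq_fintype_card, Nat.card_eq_fintype_card,
        Fintype.card_subtype, Fintype.card_subtype,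
        ← Finset.card_erase_of_mem (a := x) (by simp [c.2])]
      congr 1
      ext w
      simp [and_comm]
    rwa [O.card_in] at h
  rw [Finset.prod_congr rfl fun c _ => hc c, Finset.prod_const, Finset.card_univ,
    ← Nat.card_eq_fintype_card, O.card_out]

theorem relIndex_X_dvd [Finite Ω] (x : Ω) :
    (O.X x).relIndex (stabilizer G x) ∣ Nat.factorial d * Nat.factorial (d - 1) ^ d := by
  rw [← Subgroup.relIndex_mul_relIndex _ _ _ (O.X_le_K x) (O.K_le_stab x), mul_comm]
  exact mul_dvd_mul (O.relIndex_K_dvd x) (O.relIndex_X_K_dvd x)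

end Orbital

end CfsgLib.OrderDegrees.ThompsonWielandt
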